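import Cfsg.Agent.H994.NX.Wie

/-!
# S5745, row `F_4(2)` (helper146): fixed point counts of `3`-elements on an elementary abelian `2`-group of order `2 ^ 52`

`F x = |C_U(x)|`.
* `rank_two` : `F x * F y * F (x y) * F (x y⁻¹) = |U| * F (x, y) ^ 3`;
* `rank_three` : the same on `C_U(z)`;
* `not_all` : if `z, x, y` generate a group of order 27 with `z` central, of exponent `3` modulo ..., all values `2 ^ 22` are impossible;
* `not_mixed`.
-/

set_option autoImplicit false
set_option linter.unusedSectionVars false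

namespace Cfsg.Agent.H146.F42

open Cfsg.Agent.H994.NX

section aut

variable {Y U : Type*} [Group Y] [Finite Y] [AddCommGroup U] [Finite U] [DistribMulAction Y U]

/-- the formula of Wielandt for commuting automorphisms with `x ^ 3 = y ^ 3 = 1` -/
theorem wie (hexp : ∀ u : U, 2 • u = 0) (x y : Y) (hx3 : x ^ 3 = 1) (hy3 : y ^ 3 = 1) (hxy : x * y = y * x) :
    Nat.card {u : U // x • u = u} * Nat.card {u : U // y • u = u} * Nat.card {u : U // (x * y) • u = u} *
      Nat.card {u : U // (x * y⁻¹) • u = u} = Nat.card U * Nat.card {u : U // x • u = u ∧ y • u = u} ^ 3 := by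
  have hxy3 : (x * y) ^ 3 = 1 := by rw [(show Commute x y from hxy).mul_pow, hx3, hy3, one_mul]
  have hxy3' : (x * y⁻¹) ^ 3 = 1 := by
    rw [(show Commute x y⁻¹ from (show Commute x y from hxy).inv_right).mul_pow, inv_pow, hx3, hy3, inv_one, one_mul]
  obtain ⟨k1, k2, k3, k4, k5, k6, k7⟩ := four_sums (U := U) hexp hx3 hy3 hxy
  -- elements of `C`
  have hC : ∀ u : U, (x • u = u ∧ y • u = u) → (x * y) • u = u ∧ (x * y⁻¹) • u = u ∧ e3 x (e3 y u) = u := by
    rintro u ⟨h1, h2⟩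
    have h3 : y⁻¹ • u = u := by rw [inv_smul_eq_iff, h2]
    refine ⟨by rw [mul_smul, h2, h1], by rw [mul_smul, h3, h1], ?_⟩
    rw [e3_fix hexp h2, e3_fix hexp h1]
  have hN : ∀ u : U, x • e3 x (e3 y u) = e3 x (e3 y u) ∧ y • e3 x (e3 y u) = e3 x (e3 y u) := fun u =>
    ⟨smul_e3 hx3 _, by rw [k1]; exact smul_e3 hy3 _⟩
  have hadd : ∀ u v : U, u + v = 0 ↔ u = v := by
    intro u v
    have h := hexp v
    rw [two_smul] at h
    constructor
    · intro h1
      rw [← h] at h1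
      exact add_right_cancel h1
    · rintro rfl
      exact h
  -- the bijection
  let f : {u : U // x • u = u} × {u : U // y • u = u} × {u : U // (x * y) • u = u} × {u : U // (x * y⁻¹) • u = u} →
      U × {u : U // x • u = u ∧ y • u = u} × {u : U // x • u = u ∧ y • u = u} × {u : U // x • u = u ∧ y • u = u} :=
    fun a => (a.1.1 + a.2.1.1 + a.2.2.1.1 + a.2.2.2.1, ⟨_, hN a.1.1⟩, ⟨_, hN a.2.1.1⟩, ⟨_, hN a.2.2.1.1⟩)
  have hf : Function.Bijective f := by
    constructor
    · rintro ⟨⟨a, ha⟩, ⟨b, hb⟩, ⟨c, hc⟩, ⟨d, hd⟩⟩ ⟨⟨a', ha'⟩, ⟨b', hb'⟩, ⟨c', hc'⟩, ⟨d', hd'⟩⟩ hh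
      simp only [f, Prod.mk.injEq, Subtype.mk.injEq] at hh
      obtain ⟨h1, h2, h3, h4⟩ := hh
      have key : ∀ a b c d : U, x • a = a → y • b = b → (x * y) • c = c → (x * y⁻¹) • d = d → a + b + c + d = 0 →
          e3 x (e3 y a) = 0 → e3 x (e3 y b) = 0 → e3 x (e3 y c) = 0 → a = 0 ∧ b = 0 ∧ c = 0 ∧ d = 0 := by
        intro a b c d ha hb hc hd hs na nb nc
        have nd : e3 x (e3 y d) = 0 := by
          have h := congrArg (fun v : U => e3 x (e3 y v)) hs
          simp only [e3_add, e3_zero, na, nb, nc, zero_add] at h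
          exact h
        have fa := e3_fix hexp ha
        have fb := e3_fix hexp hb
        have fc := e3_fix hexp hc
        have fd := e3_fix hexp hd
        have a0 : a = 0 := by
          have h := congrArg (fun v : U => e3 x v) hs
          simp only [e3_add, e3_zero] at h
          rw [fa] at h
          rw [← fb, nb, ← fc, k2, nc, ← fd, k4, nd, add_zero, add_zero, add_zero] at h
          exact h
        have b0 : b = 0 := by
          have h := congrArg (fun v : U => e3 y v) hs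
          simp only [e3_add, e3_zero] at h
          rw [a0, e3_zero, fb, ← fc, k3, nc, ← fd, k5, nd, add_zero, add_zero, zero_add] at h
          exact h
        have c0 : c = 0 := by
          have h := congrArg (fun v : U => e3 (x * y) v) hs
          simp only [e3_add, e3_zero] at h
          rw [a0, b0, e3_zero, fc, ← fd, k6, nd, add_zero, add_zero, zero_add] at h
          exact h
        refine ⟨a0, b0, c0, ?_⟩
        rw [a0, b0, c0, add_zero, add_zero, zero_add] at hs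
        exact hs
      have hsub : ∀ (z : Y) (v w : U), z • v = v → z • w = w → z • (v - w) = v - w := by
        intro z v w hv hw
        rw [smul_sub, hv, hw]
      have hNsub : ∀ v w : U, e3 x (e3 y v) = e3 x (e3 y w) → e3 x (e3 y (v - w)) = 0 := by
        intro v w hvw
        have h := e3_add (U := U) x (e3 y (v - w)) (e3 y w)
        rw [← e3_add, sub_add_cancel, hvw] at h
        exact (right_eq_add.1 h)
      obtain ⟨m1, m2, m3, m4⟩ := key (a - a') (b - b') (c - c') (d - d') (hsub _ _ _ ha ha') (hsub _ _ _ hb hb')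
        (hsub _ _ _ hc hc') (hsub _ _ _ hd hd')
        (by
          have h : a - a' + (b - b') + (c - c') + (d - d') = (a + b + c + d) - (a' + b' + c' + d') := by abel
          rw [h, h1, sub_self]) (hNsub _ _ h2) (hNsub _ _ h3) (hNsub _ _ h4)
      rw [sub_eq_zero] at m1 m2 m3 m4
      subst m1 m2 m3 m4
      rfl
    · rintro ⟨u, ⟨c1, hc1⟩, ⟨c2, hc2⟩, ⟨c3, hc3⟩⟩
      obtain ⟨N, hNdef⟩ : ∃ N, N = e3 x (e3 y u) := ⟨_, rfl⟩
      have hNf := hN u
      rw [← hNdef] at hNf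
      obtain ⟨-, -, hNN⟩ := hC N hNf
      obtain ⟨c1a, c1b, c1N⟩ := hC c1 hc1
      obtain ⟨c2a, c2b, c2N⟩ := hC c2 hc2
      obtain ⟨c3a, c3b, c3N⟩ := hC c3 hc3
      obtain ⟨Na, Nb, -⟩ := hC N hNf
      have hNu := hexp N
      rw [two_smul] at hNu
      refine ⟨(⟨e3 x u + N + c1, ?_⟩, ⟨e3 y u + N + c2, ?_⟩, ⟨e3 (x * y) u + N + c3, ?_⟩,
        ⟨e3 (x * y⁻¹) u + N + (N + c1 + c2 + c3), ?_⟩), ?_⟩
      · rw [smul_add, smul_add, smul_e3 hx3, hNf.1, hc1.1]
      · rw [smul_add, smul_add, smul_e3 hy3, hNf.2, hc2.2]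
      · rw [smul_add, smul_add, smul_e3 hxy3, Na, c3a]
      · rw [smul_add, smul_add, smul_add, smul_add, smul_add, smul_e3 hxy3', Nb, c1b, c2b, c3b]
      · simp only [f, Prod.mk.injEq, Subtype.mk.injEq]
        refine ⟨?_, ?_, ?_, ?_⟩
        · have h := k7 u
          rw [← hNdef] at h
          have e1 := hexp c1
          have e2 := hexp c2
          have e3' := hexp c3
          rw [two_smul] at e1 e2 e3'
          calc e3 x u + N + c1 + (e3 y u + N + c2) + (e3 (x * y) u + N + c3) +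
                (e3 (x * y⁻¹) u + N + (N + c1 + c2 + c3)) =
              (e3 x u + e3 y u + e3 (x * y) u + e3 (x * y⁻¹) u) + (N + (N + N) + (N + N) + (c1 + c1) + (c2 + c2) +
                (c3 + c3)) := by abel
            _ = u := by
              rw [h, hNu, e1, e2, e3', add_zero, add_zero, add_zero, add_zero, add_zero, add_assoc, hNu, add_zero]
        · rw [e3_add, e3_add, e3_add, e3_add, hNN, c1N, ← k1, e3_fix hexp (smul_e3 hx3 _), ← hNdef, hNu, zero_add]
        · rw [e3_add, e3_add, e3_add, e3_add, hNN, c2N, e3_fix hexp (smul_e3 hy3 _), ← hNdef, hNu, zero_add]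
        · rw [e3_add, e3_add, e3_add, e3_add, hNN, c3N, k3, ← hNdef, e3_fix hexp hNf.1, hNu, zero_add]
  have hcard := Nat.card_congr (Equiv.ofBijective f hf)
  simp only [Nat.card_prod] at hcard
  calc _ = _ := by ring
    _ = _ := hcard
    _ = _ := by ring

end aut

section act

variable {Y U : Type*} [Group Y] [Finite Y] [AddCommGroup U] [Finite U] [DistribMulAction Y U]

/-- `|C_U(x)|` -/
noncomputable def F1 (U : Type*) [AddCommGroup U] [DistribMulAction Y U] (x : Y) : ℕ := Nat.card {u : U // x • u = u}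
noncomputable def F2 (U : Type*) [AddCommGroup U] [DistribMulAction Y U] (z x : Y) : ℕ :=
  Nat.card {u : U // z • u = u ∧ x • u = u}
noncomputable def F3 (U : Type*) [AddCommGroup U] [DistribMulAction Y U] (z x y : Y) : ℕ :=
  Nat.card {u : U // z • u = u ∧ x • u = u ∧ y • u = u}

theorem rank_two (hexp : ∀ u : U, 2 • u = 0) {x y : Y} (hx3 : x ^ 3 = 1) (hy3 : y ^ 3 = 1) (hxy : x * y = y * x) :
    F1 U x * F1 U y * F1 U (x * y) * F1 U (x * y⁻¹) = Nat.card U * F2 U x y ^ 3 := by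
  exact wie hexp x y hx3 hy3 hxy

/-- the fixed vectors of `z` -/
def Uz (U : Type*) [AddCommGroup U] [DistribMulAction Y U] (z : Y) : AddSubgroup U where
  carrier := {u | z • u = u}
  zero_mem' := smul_zero z
  add_mem' := by
    intro a b ha hb
    show z • (a + b) = a + b
    rw [smul_add, ha, hb]
  neg_mem' := by
    intro a ha
    show z • (-a) = -a
    rw [smul_neg, ha]

theorem mem_Uz {z : Y} {u : U} : u ∈ Uz U z ↔ z • u = u := Iff.rfl

/-- the group of automorphisms -/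
abbrev AU (V : Type*) [AddCommGroup V] := (AddMonoid.End V)ˣ

instance finAU (V : Type*) [AddCommGroup V] [Finite V] : Finite (AU V) := by
  have : Finite (V → V) := inferInstance
  exact Finite.of_injective (fun f : AU V => ((f : AddMonoid.End V) : V → V)) (fun f g h => by
    apply Units.ext
    ext u
    exact congrFun h u)

/-- the restriction of `x` to `C_U(z)` -/
def rmap {z x : Y} (h : x * z = z * x) : AddMonoid.End (Uz U z) where
  toFun u := ⟨x • u.1, by
    rw [mem_Uz, ← mul_smul, ← h, mul_smul, mem_Uz.1 u.2]⟩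
  map_zero' := Subtype.ext (smul_zero x)
  map_add' u v := Subtype.ext (smul_add x u.1 v.1)

theorem inv_comm' {z x : Y} (h : x * z = z * x) : x⁻¹ * z = z * x⁻¹ := by
  rw [inv_mul_eq_iff_eq_mul, ← mul_assoc, h, mul_assoc, mul_inv_cancel, mul_one]

def res {z x : Y} (h : x * z = z * x) : AU (Uz U z) where
  val := rmap h
  inv := rmap (inv_comm' h)
  val_inv := by
    ext u
    show x • x⁻¹ • (u : U) = u
    rw [smul_inv_smul]
  inv_val := by
    ext u
    show x⁻¹ • x • (u : U) = u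
    rw [inv_smul_smul]

theorem res_coe {z x : Y} (h : x * z = z * x) (u : Uz U z) : (((res h : AU (Uz U z)) • u : Uz U z) : U) = x • (u : U) := rfl

theorem rank_three (hexp : ∀ u : U, 2 • u = 0) {z x y : Y} (hx3 : x ^ 3 = 1) (hy3 : y ^ 3 = 1) (hxz : x * z = z * x)
    (hyz : y * z = z * y) (hxy : ∀ u : U, z • u = u → x • y • u = y • x • u) :
    F2 U z x * F2 U z y * F2 U z (x * y) * F2 U z (x * y⁻¹) = F1 U z * F3 U z x y ^ 3 := by
  have hexp' : ∀ u : Uz U z, 2 • u = 0 := fun u => Subtype.ext (hexp u)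
  have e3 : ∀ {w : Y} (hw : w * z = z * w), w ^ 3 = 1 → (res hw : AU (Uz U z)) ^ 3 = 1 := by
    intro w hw h3
    apply Units.ext
    ext u
    show w • w • w • (u : U) = u
    rw [← mul_smul, ← mul_smul, ← pow_two, ← pow_succ, h3, one_smul]
  have h := wie hexp' (res hxz) (res hyz) (e3 hxz hx3) (e3 hyz hy3) (by
    apply Units.ext
    ext u
    exact hxy u u.2)
  have key : ∀ (P : U → Prop) (Q : Uz U z → Prop), (∀ u : Uz U z, Q u ↔ P u) →
      Nat.card {u : Uz U z // Q u} = Nat.card {u : U // z • u = u ∧ P u} := by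
    intro P Q hPQ
    refine Nat.card_congr ⟨fun u => ⟨u.1.1, u.1.2, (hPQ _).1 u.2⟩, fun u => ⟨⟨u.1, u.2.1⟩, (hPQ _).2 u.2.2⟩,
      fun u => rfl, fun u => rfl⟩
  have h1 := key (fun u => x • u = u) (fun u => (res hxz : AU (Uz U z)) • u = u) (fun u => by
    rw [Subtype.ext_iff]; rfl)
  have h2 := key (fun u => y • u = u) (fun u => (res hyz : AU (Uz U z)) • u = u) (fun u => by
    rw [Subtype.ext_iff]; rfl)
  have h3 := key (fun u => (x * y) • u = u) (fun u => (res hxz * res hyz : AU (Uz U z)) • u = u) (fun u => by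
    rw [Subtype.ext_iff, mul_smul, mul_smul]; rfl)
  have h4 := key (fun u => (x * y⁻¹) • u = u) (fun u => (res hxz * (res hyz)⁻¹ : AU (Uz U z)) • u = u)
    (fun u => by
      rw [Subtype.ext_iff, mul_smul, mul_smul]; rfl)
  have h5 := key (fun u => x • u = u ∧ y • u = u) (fun u => (res hxz : AU (Uz U z)) • u = u ∧
    (res hyz : AU (Uz U z)) • u = u) (fun u => by
      rw [Subtype.ext_iff, Subtype.ext_iff]; rfl)
  rw [h1, h2, h3, h4, h5] at h
  exact h

theorem F3_le (z x y : Y) : F3 U z x y ≤ F2 U z y := by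
  refine Nat.card_le_card_of_injective (fun u : {u : U // z • u = u ∧ x • u = u ∧ y • u = u} =>
    (⟨u.1, u.2.1, u.2.2.2⟩ : {u : U // z • u = u ∧ y • u = u})) fun a b hab => ?_
  exact Subtype.ext (congrArg (fun t : {u : U // z • u = u ∧ y • u = u} => (t : U)) hab)

theorem cube_inj {a b : ℕ} (h : a ^ 3 = b ^ 3) : a = b := Nat.pow_left_injective (by norm_num) h

/-- rank two, with the values -/
theorem two_val (hexp : ∀ u : U, 2 • u = 0) (hU : Nat.card U = 2 ^ 52) {x y : Y} (hx3 : x ^ 3 = 1) (hy3 : y ^ 3 = 1)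
    (hxy : x * y = y * x) {a b c d e : ℕ} (ha : F1 U x = 2 ^ a) (hb : F1 U y = 2 ^ b) (hc : F1 U (x * y) = 2 ^ c)
    (hd : F1 U (x * y⁻¹) = 2 ^ d) (he : a + b + c + d = 52 + 3 * e) : F2 U x y = 2 ^ e := by
  have h := rank_two hexp hx3 hy3 hxy
  rw [ha, hb, hc, hd, hU, ← pow_add, ← pow_add, ← pow_add, he, pow_add] at h
  have h2 := Nat.eq_of_mul_eq_mul_left (by positivity) h
  apply cube_inj
  rw [← h2, ← pow_mul, mul_comm]

/-- **not all elements have `|C_U(x)| = 2 ^ 22`** : `z` central of order 3, `P / z` of type `(3, 3)`. -/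
theorem not_all (hexp : ∀ u : U, 2 • u = 0) (hU : Nat.card U = 2 ^ 52) {z x y : Y} (hz3 : z ^ 3 = 1) (hx3 : x ^ 3 = 1)
    (hy3 : y ^ 3 = 1) (hxy3 : (x * y) ^ 3 = 1) (hxy3' : (x * y⁻¹) ^ 3 = 1) (hxz : x * z = z * x) (hyz : y * z = z * y)
    (hc : ∀ u : U, z • u = u → x • y • u = y • x • u) (hz : F1 U z = 2 ^ 22)
    (hall : ∀ w : Y, w = x ∨ w = y ∨ w = x * y ∨ w = x * y⁻¹ → F1 U w = 2 ^ 22 ∧ F1 U (z * w) = 2 ^ 22 ∧
      F1 U (z * w⁻¹) = 2 ^ 22) : False := by
  have key : ∀ w : Y, w ^ 3 = 1 → z * w = w * z → (w = x ∨ w = y ∨ w = x * y ∨ w = x * y⁻¹) → F2 U z w = 2 ^ 12 := by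
    intro w hw3 hwz hw
    obtain ⟨h1, h2, h3⟩ := hall w hw
    exact two_val hexp hU hz3 hw3 hwz hz h1 h2 h3 (by norm_num)
  have hy' : z * y⁻¹ = y⁻¹ * z := by
    rw [eq_inv_mul_iff_mul_eq, ← mul_assoc, hyz, mul_assoc, mul_inv_cancel, mul_one]
  have h1 := key x hx3 hxz.symm (Or.inl rfl)
  have h2 := key y hy3 hyz.symm (Or.inr (Or.inl rfl))
  have h3 := key (x * y) hxy3 (by rw [← mul_assoc, ← hxz, mul_assoc, ← hyz, ← mul_assoc])
    (Or.inr (Or.inr (Or.inl rfl)))
  have h4 := key (x * y⁻¹) hxy3' (by rw [← mul_assoc, ← hxz, mul_assoc, hy', ← mul_assoc])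
    (Or.inr (Or.inr (Or.inr rfl)))
  have h := rank_three hexp hx3 hy3 hxz hyz hc
  rw [h1, h2, h3, h4, hz] at h
  have h5 : 2 ^ 22 * 2 ^ 26 = 2 ^ 22 * F3 U z x y ^ 3 := by rw [← h]; norm_num
  have h6 := Nat.eq_of_mul_eq_mul_left (by positivity) h5
  -- 2 ^ 26 is no cube
  have h7 : F3 U z x y < 407 := by
    by_contra hcon
    push Not at hcon
    have : 407 ^ 3 ≤ F3 U z x y ^ 3 := Nat.pow_le_pow_left hcon 3
    rw [← h6] at this
    norm_num at this
  have h8 : 406 ≤ F3 U z x y := by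
    by_contra hcon
    push Not at hcon
    have : F3 U z x y ^ 3 ≤ 405 ^ 3 := Nat.pow_le_pow_left (by omega) 3
    rw [← h6] at this
    norm_num at this
  have h9 : F3 U z x y = 406 := by omega
  rw [h9] at h6
  norm_num at h6

/-- **the mixed configuration is impossible** -/
theorem not_mixed (hexp : ∀ u : U, 2 • u = 0) (hU : Nat.card U = 2 ^ 52) {z x a : Y} (hz3 : z ^ 3 = 1) (hx3 : x ^ 3 = 1)
    (ha3 : a ^ 3 = 1) (hxz : x * z = z * x) (haz : a * z = z * a) (hxa : x * a = a * x)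
    (hz : F1 U z = 2 ^ 16) (ha : F1 U a = 2 ^ 16) (hza : F1 U (z * a) = 2 ^ 16) (hza' : F1 U (z * a⁻¹) = 2 ^ 16)
    (hall : ∀ w : Y, w = x ∨ w = x * a ∨ w = x * a⁻¹ → F1 U w = 2 ^ 22 ∧ F1 U (z * w) = 2 ^ 22 ∧
      F1 U (z * w⁻¹) = 2 ^ 22) : False := by
  have hx_a' : x * a⁻¹ = a⁻¹ * x := by
    rw [eq_inv_mul_iff_mul_eq, ← mul_assoc, ← hxa, mul_assoc, mul_inv_cancel, mul_one]
  have ha' : z * a⁻¹ = a⁻¹ * z := by
    rw [eq_inv_mul_iff_mul_eq, ← mul_assoc, haz, mul_assoc, mul_inv_cancel, mul_one]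
  have key : ∀ w : Y, w ^ 3 = 1 → z * w = w * z → (w = x ∨ w = x * a ∨ w = x * a⁻¹) → F2 U z w = 2 ^ 10 := by
    intro w hw3 hwz hw
    obtain ⟨h1, h2, h3⟩ := hall w hw
    exact two_val hexp hU hz3 hw3 hwz hz h1 h2 h3 (by norm_num)
  have h1 := key x hx3 hxz.symm (Or.inl rfl)
  have h3 := key (x * a) (by rw [(show Commute x a from hxa).mul_pow, hx3, ha3, one_mul])
    (by rw [← mul_assoc, ← hxz, mul_assoc, ← haz, ← mul_assoc]) (Or.inr (Or.inl rfl))
  have h4 := key (x * a⁻¹) (by rw [(show Commute x a⁻¹ from hx_a').mul_pow, hx3, inv_pow, ha3, inv_one, one_mul])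
    (by rw [← mul_assoc, ← hxz, mul_assoc, ha', ← mul_assoc]) (Or.inr (Or.inr rfl))
  have h2 : F2 U z a = 2 ^ 4 := two_val hexp hU hz3 ha3 haz.symm hz ha hza hza' (by norm_num)
  have h := rank_three hexp hx3 ha3 hxz haz (fun u _ => by rw [← mul_smul, hxa, mul_smul])
  rw [h1, h2, h3, h4, hz] at h
  have h5 : 2 ^ 16 * (2 ^ 6) ^ 3 = 2 ^ 16 * F3 U z x a ^ 3 := by rw [← h]; norm_num
  have h6 := cube_inj (Nat.eq_of_mul_eq_mul_left (by positivity) h5)
  have h7 := F3_le (U := U) z x a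
  rw [← h6, h2] at h7
  norm_num at h7

end act

end Cfsg.Agent.H146.F42
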