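import Cfsg.Agent.FourTwo.Base
import Cfsg.Agent.FourTwo.RankInv
import Cfsg.Agent.H146.F42.Fus

/-!
# S5745, row `F_4(2)` (helper146): `|C_L(x)|` on the adjoint module for words in root elements
-/

set_option autoImplicit false
set_option linter.unusedSectionVars false

namespace Cfsg.Agent.H146.F42

open Cfsg.Lie Cfsg.Agent.FourTwo.RankInv Cfsg.Agent.FourTwo.Base
  Cfsg.Agent.ChevalleyStructure.TwF4.Bits Cfsg.Agent.ChevalleyStructure.TwF4.Tables
  Cfsg.Agent.ChevalleyStructure.TwF4.Rel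

/-- the adjoint module of `F_4(2)` -/
def UU : Type := chevF4.Idx → ZMod 2

instance : AddCommGroup UU := inferInstanceAs (AddCommGroup (chevF4.Idx → ZMod 2))
instance : Finite UU := inferInstanceAs (Finite (chevF4.Idx → ZMod 2))

theorem UU_exp (u : UU) : 2 • u = 0 := by
  have h : ∀ a : ZMod 2, 2 • a = 0 := by decide
  funext i
  exact h (u i)

theorem card_Idx : Fintype.card chevF4.Idx = 52 := by decide +kernel

theorem card_UU : Nat.card UU = 2 ^ 52 := by
  show Nat.card (chevF4.Idx → ZMod 2) = 2 ^ 52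
  rw [Nat.card_fun, Nat.card_zmod, Nat.card_eq_fintype_card, card_Idx]

instance : DistribMulAction LL UU where
  smul g u := ((g : GL chevF4.Idx (ZMod 2)) : Matrix chevF4.Idx chevF4.Idx (ZMod 2)).mulVec u
  one_smul u := Matrix.one_mulVec u
  mul_smul _ _ u := (Matrix.mulVec_mulVec u _ _).symm
  smul_zero _ := Matrix.mulVec_zero _
  smul_add _ _ _ := Matrix.mulVec_add _ _ _

theorem smul_def (g : LL) (u : UU) :
    g • u = ((g : GL chevF4.Idx (ZMod 2)) : Matrix chevF4.Idx chevF4.Idx (ZMod 2)).mulVec u := rfl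

/-- `|C_L(g)| = 2 ^ (52 - rank (g - 1))` -/
theorem F1_eq (g : LL) (k : ℕ) (hk : k ≤ 52) (h : ((((g : LL) : GL chevF4.Idx (ZMod 2)) :
    Matrix chevF4.Idx chevF4.Idx (ZMod 2)) - 1).rank = k) : F1 UU g = 2 ^ (52 - k) := by
  set M : Matrix chevF4.Idx chevF4.Idx (ZMod 2) := (((g : LL) : GL chevF4.Idx (ZMod 2)) :
    Matrix chevF4.Idx chevF4.Idx (ZMod 2)) - 1 with hM
  have h1 : F1 UU g = Nat.card (LinearMap.ker M.mulVecLin) := by
    have hv : ∀ v : chevF4.Idx → ZMod 2,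
        (((g : LL) : GL chevF4.Idx (ZMod 2)) : Matrix chevF4.Idx chevF4.Idx (ZMod 2)).mulVec v = v ↔
          M.mulVec v = 0 := by
      intro v
      rw [hM, Matrix.sub_mulVec, Matrix.one_mulVec, sub_eq_zero]
    exact Nat.card_congr (Equiv.subtypeEquivRight fun u => hv u)
  have h2 := LinearMap.finrank_range_add_finrank_ker M.mulVecLin
  have h3 : Module.finrank (ZMod 2) (LinearMap.range M.mulVecLin) = k := h
  rw [h3, Module.finrank_fintype_fun_eq_card, card_Idx] at h2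
  have h4 : Module.finrank (ZMod 2) (LinearMap.ker M.mulVecLin) = 52 - k := by omega
  rw [h1, Module.natCard_eq_pow_finrank (K := ZMod 2), Nat.card_zmod, h4]

theorem dg_full : dg (ZMod 2) (2 ^ 52 - 1) = 1 := by
  unfold dg
  rw [← Matrix.diagonal_one]
  congr 1
  funext i
  have h : (2 ^ 52 - 1 : ℕ).testBit (pos i) = true := by
    rw [Nat.testBit_two_pow_sub_one]
    simpa using posOK.lt i
  rw [if_pos h]

theorem rank_wd (w : List ℕ) (hw : ∀ r ∈ w, r < 48) :
    ((((wd w : LL) : GL chevF4.Idx (ZMod 2)) : Matrix chevF4.Idx chevF4.Idx (ZMod 2)) - 1).rank =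
      rkM (2 ^ 52 - 1) (wordM w) := by
  have h1 := rank_blk (K := ZMod 2) (2 ^ 52 - 1) (wordM w)
  rw [← h1, blk, dg_full, Matrix.one_mul, Matrix.mul_one, sem_wordM w hw]
  congr 2
  clear h1
  induction w with
  | nil => rfl
  | cons r w ih =>
    have h2 : (((wd (r :: w) : LL) : GL chevF4.Idx (ZMod 2)) : Matrix chevF4.Idx chevF4.Idx (ZMod 2)) =
        chevF4.x (ZMod 2) r 1 * (((wd w : LL) : GL chevF4.Idx (ZMod 2)) : Matrix chevF4.Idx chevF4.Idx (ZMod 2)) := by
      rw [wd_cons]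
      rfl
    rw [h2, ih (fun s hs => hw s (List.mem_cons_of_mem _ hs))]
    simp [wordX]

theorem F1_wd (w : List ℕ) (hw : ∀ r ∈ w, r < 48) (k : ℕ) (hk : k ≤ 52) (h : rkM (2 ^ 52 - 1) (wordM w) = k) :
    F1 UU (wd w) = 2 ^ (52 - k) := F1_eq _ k hk (by rw [rank_wd w hw, h])

/-! ### the elements of order 3 -/

theorem F1_s0 : F1 UU (wd [33, 14]) = 2 ^ 22 := F1_wd _ (by decide) 30 (by norm_num) (by decide +kernel)
theorem F1_s1 : F1 UU (wd [27, 20]) = 2 ^ 22 := F1_wd _ (by decide) 30 (by norm_num) (by decide +kernel)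
theorem F1_s2 : F1 UU (wd [25, 22]) = 2 ^ 22 := F1_wd _ (by decide) 30 (by norm_num) (by decide +kernel)
theorem F1_s3 : F1 UU (wd [24, 23]) = 2 ^ 22 := F1_wd _ (by decide) 30 (by norm_num) (by decide +kernel)
theorem F1_s02 : F1 UU (wd [33, 14, 25, 22]) = 2 ^ 16 := F1_wd _ (by decide) 36 (by norm_num) (by decide +kernel)
theorem F1_s03 : F1 UU (wd [33, 14, 24, 23]) = 2 ^ 16 := F1_wd _ (by decide) 36 (by norm_num) (by decide +kernel)
theorem F1_s13 : F1 UU (wd [27, 20, 24, 23]) = 2 ^ 16 := F1_wd _ (by decide) 36 (by norm_num) (by decide +kernel)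
theorem F1_s02' : F1 UU (wd [33, 14, 22, 25]) = 2 ^ 16 := F1_wd _ (by decide) 36 (by norm_num) (by decide +kernel)
theorem F1_s03' : F1 UU (wd [33, 14, 23, 24]) = 2 ^ 16 := F1_wd _ (by decide) 36 (by norm_num) (by decide +kernel)
theorem F1_s13' : F1 UU (wd [27, 20, 23, 24]) = 2 ^ 16 := F1_wd _ (by decide) 36 (by norm_num) (by decide +kernel)

end Cfsg.Agent.H146.F42
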