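import Cfsg.Agent.H146.F42.L43Num

/-!
# S5745, row `F_4(2)`, `T = L_4(3)` (helper146): numbers of elements of order `3` and `5` in `L_4(3)`
-/

set_option autoImplicit false
set_option linter.unusedSectionVars false

namespace Cfsg.Agent.H146.F42.L43

open Cfsg.Agent.H742.EX

/-! ### order 9 and order 3 -/

def r3 : M4 := !![1, 0, 0, 1; 0, 1, 0, 0; 0, 0, 1, 0; 0, 0, 0, 1]
theorem rm_three : rm * rm * rm = r3 := by decide +kernel
theorem r3_three : r3 * r3 * r3 = 1 := by decide +kernel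
theorem r3_ne : r3 ≠ 1 := by decide +kernel

theorem rm_pow_three : rm ^ 3 = r3 := by rw [pow_succ, pow_two, rm_three]
theorem rm_pow_nine : rm ^ 9 = 1 := by
  have h : rm ^ 9 = (rm ^ 3) ^ 3 := by rw [← pow_mul]
  rw [h, rm_pow_three, pow_succ, pow_two, r3_three]

theorem rG_pow_three : ((rG ^ 3 : G4) : M4) = r3 := by
  rw [Units.val_pow_eq_pow_val, rG_coe, rm_pow_three]
theorem rG_pow_nine : rG ^ 9 = 1 := by
  apply Units.ext
  rw [Units.val_pow_eq_pow_val, rG_coe, rm_pow_nine]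
  rfl

theorem det_conj_r {y : G4} (h : IsConj rG y) : (y : M4).det = 1 := by
  obtain ⟨c, hc⟩ := isConj_iff.1 h
  have h1 : Matrix.GeneralLinearGroup.det y = Matrix.GeneralLinearGroup.det rG := by
    rw [← hc, map_mul, map_mul, map_inv, mul_comm, inv_mul_cancel_left]
  have h2 := congrArg (fun u : Kˣ => (u : K)) h1
  have h3 : (Matrix.GeneralLinearGroup.det rG : K) = 1 := by
    show (rm : M4).det = 1
    rw [det4_eq, det_rm]
  exact h2.trans h3

theorem conj_pow' {y : G4} (h : IsConj rG y) (n : ℕ) (hn : y ^ n = 1) : rG ^ n = 1 := by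
  obtain ⟨c, rfl⟩ := isConj_iff.1 h
  rw [conj_pow, conj_eq_one_iff] at hn
  exact hn

theorem pow_nine {y : G4} (h : IsConj rG y) : y ^ 9 = 1 := by
  obtain ⟨c, rfl⟩ := isConj_iff.1 h
  rw [conj_pow, rG_pow_nine, mul_one, mul_inv_cancel]

/-- the element of `SL_4(3)` -/
def toS (y : {y : G4 // IsConj rG y}) : S4 := ⟨(y.1 : M4), det_conj_r y.2⟩

theorem toS_coe (y : {y : G4 // IsConj rG y}) : ((toS y : S4) : M4) = (y.1 : M4) := rfl

theorem toS_nine (y : {y : G4 // IsConj rG y}) : toS y ^ 9 = 1 := by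
  apply Subtype.ext
  rw [Matrix.SpecialLinearGroup.coe_pow, toS_coe, ← Units.val_pow_eq_pow_val, pow_nine y.2]
  rfl

theorem toS_order (y : {y : G4 // IsConj rG y}) : orderOf (π (toS y)) = 9 := by
  have h9 := toS_nine y
  have hp : Fact (Nat.Prime 3) := ⟨Nat.prime_three⟩
  have h := orderOf_eq_prime_pow (x := π (toS y)) (p := 3) (n := 1) ?_ (by
    show π (toS y) ^ 9 = 1
    rw [← map_pow, h9, map_one])
  · simpa using h
  · intro h3
    rw [pow_one, ← map_pow] at h3
    have h4 : ((toS y ^ 3 : S4) : M4) = ((y.1 ^ 3 : G4) : M4) := by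
      rw [Matrix.SpecialLinearGroup.coe_pow, toS_coe, Units.val_pow_eq_pow_val]
    rcases π_one h3 with h5 | h5
    · have h6 : y.1 ^ 3 = 1 := Units.ext (by rw [← h4, h5]; rfl)
      have h7 := conj_pow' y.2 3 h6
      have h8 := rG_pow_three
      rw [h7] at h8
      exact r3_ne h8.symm
    · have h6 : ((toS y ^ 9 : S4) : M4) = (-1) ^ 3 := by
        rw [← h5, ← Matrix.SpecialLinearGroup.coe_pow, ← pow_mul]
      rw [h9, Odd.neg_one_pow (by decide)] at h6
      exact one_ne_neg h6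

theorem card_nine : 449280 ≤ Nat.card {t : P4 // orderOf t = 9} := by
  refine card_r.trans ?_
  rw [cG]
  refine Nat.card_le_card_of_injective (fun y => (⟨π (toS y), toS_order y⟩ : {t : P4 // orderOf t = 9})) ?_
  intro a b hab
  have h1 := congrArg Subtype.val hab
  have h2 := π_inj (n := 9) (by decide) (toS_nine a) (toS_nine b) h1
  exact Subtype.ext (Units.ext (congrArg (fun s : S4 => (s : M4)) h2))

theorem card_pSet_three : (Cfsg.Agent.H730.OZ.pSet 3 P4).ncard = 531441 := by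
  have : Fact (Nat.Prime 3) := ⟨Nat.prime_three⟩
  have h1 := Cfsg.Agent.H631.Kaw.card_pSet (p := 3) (Cfsg.Agent.H686.EX.rgd_psl43 (F := K) (by decide))
  have h2 : (Nat.card P4).factorization 3 = 6 :=
    Cfsg.Agent.H686.EX.fact_of (m := 8320) (by rw [card_P4]; norm_num) (by norm_num)
  rw [h1, h2]
  norm_num

theorem card_three : Nat.card {t : P4 // orderOf t = 3} ≤ 82161 := by
  have h1 : Nat.card ({t : P4 // orderOf t = 3} ⊕ {t : P4 // orderOf t = 9}) ≤
      (Cfsg.Agent.H730.OZ.pSet 3 P4).ncard := by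
    rw [← Nat.card_coe_set_eq]
    refine Nat.card_le_card_of_injective (fun s => (match s with
      | Sum.inl t => ⟨t.1, 1, by rw [t.2]; norm_num⟩
      | Sum.inr t => ⟨t.1, 2, by rw [t.2]; norm_num⟩ : Cfsg.Agent.H730.OZ.pSet 3 P4)) ?_
    rintro (a | a) (b | b) hab
    · have h := congrArg Subtype.val hab
      exact congrArg Sum.inl (Subtype.ext h)
    · exfalso
      have h : a.1 = b.1 := congrArg Subtype.val hab
      have h3 := a.2
      rw [h, b.2] at h3
      norm_num at h3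
    · exfalso
      have h : a.1 = b.1 := congrArg Subtype.val hab
      have h3 := a.2
      rw [h, b.2] at h3
      norm_num at h3
    · have h := congrArg Subtype.val hab
      exact congrArg Sum.inr (Subtype.ext h)
  rw [Nat.card_sum, card_pSet_three] at h1
  have h2 := card_nine
  omega

/-! ### order 5 -/

def g2 : M4 := !![0, 0, 1, 0; 0, 0, 0, 2; 2, 0, 2, 1; 2, 1, 2, 0]
def g4 : M4 := !![2, 0, 2, 1; 1, 2, 1, 0; 0, 1, 2, 2; 1, 0, 0, 1]
def g10 : M4 := !![0, 1, 2, 0; 0, 0, 1, 1; 1, 0, 1, 1; 2, 2, 2, 2]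

theorem det_g2 : det4 g2 = 1 := by decide +kernel
theorem det_g4 : det4 g4 = 1 := by decide +kernel
theorem det_g10 : det4 g10 = 1 := by decide +kernel
theorem e2 : g40 * g40 = g2 := by decide +kernel
theorem e4 : g2 * g2 = g4 := by decide +kernel
theorem e5 : g4 * g4 = g5 := by decide +kernel
theorem e10 : g5 * g2 = g10 := by decide +kernel
theorem e20 : g10 * g10 = -1 := by decide +kernel
theorem g4_ne : g4 ≠ 1 ∧ g4 ≠ -1 := by decide +kernel
theorem g10_ne : g10 ≠ 1 ∧ g10 ≠ -1 := by decide +kernel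
theorem g5_ne' : g5 ≠ 1 ∧ g5 ≠ -1 := by decide +kernel

def gS : S4 := mkS g40 det_g40
def g2S : S4 := mkS g2 det_g2
def g4S : S4 := mkS g4 det_g4
def g5S : S4 := mkS g5 det_g5
def g10S : S4 := mkS g10 det_g10
def fS : S4 := mkS f5 det_f5

theorem gS_two : gS ^ 2 = g2S := by rw [pow_two]; exact Subtype.ext e2
theorem gS_four : gS ^ 4 = g4S := by
  have h : gS ^ 4 = gS ^ 2 * gS ^ 2 := by rw [← pow_add]
  rw [h, gS_two]; exact Subtype.ext e4
theorem gS_eight : gS ^ 8 = g5S := by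
  have h : gS ^ 8 = gS ^ 4 * gS ^ 4 := by rw [← pow_add]
  rw [h, gS_four]; exact Subtype.ext e5
theorem gS_ten : gS ^ 10 = g10S := by
  have h : gS ^ 10 = gS ^ 8 * gS ^ 2 := by rw [← pow_add]
  rw [h, gS_eight, gS_two]; exact Subtype.ext e10
theorem gS_twenty : gS ^ 20 = nS := by
  have h : gS ^ 20 = gS ^ 10 * gS ^ 10 := by rw [← pow_add]
  rw [h, gS_ten]; exact Subtype.ext e20

theorem order_g : orderOf (π gS) = 20 := by
  refine orderOf_eq_of_pow_and_pow_div_prime (by norm_num) (by rw [← map_pow, gS_twenty, π_nS]) ?_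
  intro p hp hd h1
  have h2 : p = 2 ∨ p = 5 := by
    have h3 : p ∣ 2 ^ 2 * 5 := by simpa using hd
    rcases (Nat.Prime.dvd_mul hp).1 h3 with h4 | h4
    · exact Or.inl ((Nat.prime_dvd_prime_iff_eq hp Nat.prime_two).1 (hp.dvd_of_dvd_pow h4))
    · exact Or.inr ((Nat.prime_dvd_prime_iff_eq hp Nat.prime_five).1 h4)
  rcases h2 with rfl | rfl
  · norm_num at h1
    rw [← map_pow, gS_ten] at h1
    rcases π_one h1 with h3 | h3
    · exact g10_ne.1 h3
    · exact g10_ne.2 h3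
  · norm_num at h1
    rw [← map_pow, gS_four] at h1
    rcases π_one h1 with h3 | h3
    · exact g4_ne.1 h3
    · exact g4_ne.2 h3

def x5 : P4 := π g5S

theorem x5_eq : x5 = π gS ^ 8 := by rw [x5, ← gS_eight, map_pow]

theorem order_x5 : orderOf x5 = 5 := by
  rw [x5_eq, orderOf_pow, order_g]
  norm_num

theorem x5_two : IsConj x5 (x5 ^ 2) := by
  rw [isConj_iff]
  refine ⟨π fS, ?_⟩
  rw [mul_inv_eq_iff_eq_mul, x5, ← map_pow, ← map_mul, ← map_mul, pow_two]
  congr 1
  exact Subtype.ext f5_conj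

theorem x5_pow (k : ℕ) (hk : ¬ 5 ∣ k) : IsConj x5 (x5 ^ k) := by
  have h2 : ∀ m : ℕ, IsConj x5 (x5 ^ m) → IsConj x5 (x5 ^ (2 * m)) := by
    intro m hm
    have h3 : IsConj (x5 ^ m) ((x5 ^ 2) ^ m) := by
      obtain ⟨c, hc⟩ := isConj_iff.1 x5_two
      rw [isConj_iff]
      exact ⟨c, by rw [← conj_pow, hc]⟩
    rw [pow_mul]
    exact hm.trans h3
  have h0 : IsConj x5 (x5 ^ 1) := by rw [pow_one]
  have h4 := h2 _ (h2 _ h0)
  have h8 := h2 _ h4
  have hmod : x5 ^ k = x5 ^ (k % 5) := by rw [← order_x5, pow_mod_orderOf]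
  rw [hmod]
  have h5 : k % 5 = 1 ∨ k % 5 = 2 ∨ k % 5 = 3 ∨ k % 5 = 4 := by omega
  have h83 : x5 ^ (2 * (2 * (2 * 1))) = x5 ^ 3 := by
    have h6 : (2 * (2 * (2 * 1))) % orderOf x5 = 3 := by rw [order_x5]
    rw [← pow_mod_orderOf, h6]
  rw [h83] at h8
  rcases h5 with h | h | h | h <;> rw [h]
  · exact h0
  · exact x5_two
  · exact h8
  · exact h4

theorem conj_five (y : P4) (hy : orderOf y = 5) : IsConj x5 y := by
  have hp : Fact (Nat.Prime 5) := ⟨Nat.prime_five⟩
  have hsyl : ∀ x : P4, orderOf x = 5 → ∃ P : Sylow 5 P4, (P : Subgroup P4) = Subgroup.zpowers x := by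
    intro x hx
    have h1 : IsPGroup 5 (Subgroup.zpowers x) := IsPGroup.of_card (n := 1) (by rw [Nat.card_zpowers, hx, pow_one])
    obtain ⟨P, hP⟩ := h1.exists_le_sylow
    refine ⟨P, (Subgroup.eq_of_le_of_card_ge hP ?_).symm⟩
    rw [P.card_eq_multiplicity, Nat.card_zpowers, hx, card_P4]
    have h2 : Nat.factorization 6065280 5 = 1 := by
      have h3 : (6065280 : ℕ) = 5 ^ 1 * 1213056 := by norm_num
      rw [h3, Nat.factorization_mul (by norm_num) (by norm_num), Finsupp.add_apply, Nat.factorization_pow,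
        Finsupp.smul_apply, Nat.Prime.factorization_self Nat.prime_five,
        Nat.factorization_eq_zero_of_not_dvd (by norm_num)]
      simp
    rw [h2]
    norm_num
  obtain ⟨P, hP⟩ := hsyl x5 order_x5
  obtain ⟨Q, hQ⟩ := hsyl y hy
  obtain ⟨g, hg⟩ := MulAction.exists_smul_eq P4 P Q
  have h1 : y ∈ (Q : Subgroup P4) := by rw [hQ]; exact Subgroup.mem_zpowers y
  rw [← hg] at h1
  obtain ⟨p, hp1, hp2⟩ : ∃ p ∈ (P : Subgroup P4), g * p * g⁻¹ = y := by
    obtain ⟨p, hp1, hp2⟩ := h1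
    exact ⟨p, hp1, hp2⟩
  have h2 : p ∈ Subgroup.zpowers x5 := by rw [← hP]; exact hp1
  obtain ⟨k, hk⟩ := (mem_zpowers_iff_mem_range_orderOf (x := x5) (y := p)).1 h2 |> Finset.mem_image.1
  have h3 : IsConj p y := by
    rw [isConj_iff]
    exact ⟨g, hp2⟩
  have h4 : ¬ 5 ∣ k := by
    rintro ⟨m, rfl⟩
    have h5 : p = 1 := by rw [← hk.2, pow_mul, ← order_x5, pow_orderOf_eq_one, one_pow]
    rw [h5] at h3
    have h6 : y = 1 := isConj_one_right.1 h3
    rw [h6, orderOf_one] at hy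
    norm_num at hy
  have h5 := x5_pow k h4
  have h6 : x5 ^ k = p := hk.2
  rw [h6] at h5
  exact h5.trans h3

theorem card_five : Nat.card {t : P4 // orderOf t = 5} ≤ 303264 := by
  have h1 : Nat.card {t : P4 // orderOf t = 5} ≤ cG x5 := by
    rw [cG]
    refine Nat.card_le_card_of_injective (fun t : {t : P4 // orderOf t = 5} =>
      (⟨t.1, conj_five t.1 t.2⟩ : {y : P4 // IsConj x5 y})) ?_
    intro a b hab
    exact Subtype.ext (congrArg (fun z : {y : P4 // IsConj x5 y} => z.1) hab)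
  refine h1.trans ?_
  have h2 := card_G x5
  rw [card_P4] at h2
  have h3 : 20 ≤ Nat.card {t : P4 // t⁻¹ * x5 * t = x5} := by
    rw [← order_g, ← Nat.card_zpowers]
    refine Nat.card_le_card_of_injective (fun t : Subgroup.zpowers (π gS) => (⟨t.1, ?_⟩ :
      {t : P4 // t⁻¹ * x5 * t = x5})) ?_
    · obtain ⟨m, hm⟩ := Subgroup.mem_zpowers_iff.1 t.2
      rw [← hm, x5_eq, mul_assoc, inv_mul_eq_iff_eq_mul]
      exact ((Commute.refl (π gS)).pow_left 8).zpow_right m
    · intro a b hab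
      exact Subtype.ext (congrArg (fun z : {t : P4 // t⁻¹ * x5 * t = x5} => z.1) hab)
  have h4 : cG x5 * 20 ≤ cG x5 * Nat.card {t : P4 // t⁻¹ * x5 * t = x5} := Nat.mul_le_mul_left _ h3
  omega

end Cfsg.Agent.H146.F42.L43
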