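import Cfsg.Agent.H146.F42.L43Fus
import Cfsg.Agent.H686.EX.Rows3

/-!
# S5745, row `F_4(2)`, `T = L_4(3)` (helper146): class sizes in `L_4(3)`

* `card_j` : the class of `J_3 + J_1` has at least `74880` elements;
* `card_three` : at most `82160` elements of order `3`;
* `card_five` : at most `303264` elements of order `5`.
-/

set_option autoImplicit false
set_option linter.unusedSectionVars false

namespace Cfsg.Agent.H146.F42.L43

open Cfsg.Agent.H742.EX

abbrev P4 := Matrix.ProjectiveSpecialLinearGroup (Fin 4) K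

def π : S4 →* P4 := QuotientGroup.mk' _

theorem π_surj : Function.Surjective π := QuotientGroup.mk'_surjective _

instance : Finite P4 := Finite.of_surjective π π_surj

theorem card_P4 : Nat.card P4 = 6065280 := Cfsg.Agent.H686.EX.card_psl43 (F := K) (by decide)

theorem det_neg : det4 (-1 : M4) = 1 := by decide +kernel

/-- the scalar `-1` -/
def nS : S4 := mkS (-1) det_neg

theorem nS_coe : ((nS : S4) : M4) = -1 := rfl

theorem π_one {g : S4} (h : π g = 1) : (g : M4) = 1 ∨ (g : M4) = -1 := by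
  have h1 : g ∈ Subgroup.center S4 := (QuotientGroup.eq_one_iff g).1 h
  obtain ⟨r, hr, hg⟩ := Matrix.SpecialLinearGroup.mem_center_iff.1 h1
  have h2 : ∀ r : K, r ^ 4 = 1 → r = 1 ∨ r = -1 := by decide
  rcases h2 r (by simpa using hr) with rfl | rfl
  · left; rw [← hg]; simp
  · right; rw [← hg, map_neg, map_one]

theorem π_nS : π nS = 1 := by
  apply (QuotientGroup.eq_one_iff nS).2
  rw [Matrix.SpecialLinearGroup.mem_center_iff]
  refine ⟨-1, by decide, ?_⟩
  rw [nS_coe, map_neg, map_one]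

theorem π_eq {g h : S4} (e : π g = π h) : (g : M4) = h ∨ (g : M4) = -h := by
  have h1 : π (g * h⁻¹) = 1 := by rw [map_mul, map_inv, e, mul_inv_cancel]
  have h2 : ((g * h⁻¹ : S4) : M4) * (h : M4) = g := by
    rw [← Matrix.SpecialLinearGroup.coe_mul, inv_mul_cancel_right]
  rcases π_one h1 with h3 | h3
  · left; rw [← h2, h3, one_mul]
  · right; rw [← h2, h3, neg_one_mul]

theorem one_ne_neg : (1 : M4) ≠ -1 := by decide +kernel

theorem neg_pow_odd {m : M4} {n : ℕ} (hn : Odd n) : (-m) ^ n = -(m ^ n) := hn.neg_pow m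

/-- `π` is injective on the elements of odd order -/
theorem π_inj {g h : S4} {n : ℕ} (hn : Odd n) (hg : g ^ n = 1) (hh : h ^ n = 1) (e : π g = π h) : g = h := by
  rcases π_eq e with h1 | h1
  · exact Subtype.ext h1
  · exfalso
    have h2 : ((g ^ n : S4) : M4) = -((h ^ n : S4) : M4) := by
      rw [Matrix.SpecialLinearGroup.coe_pow, Matrix.SpecialLinearGroup.coe_pow, h1, neg_pow_odd hn]
    rw [hg, hh] at h2
    exact one_ne_neg h2

/-! ### the class of `J_3 + J_1` -/

def cm (b c e f : K) : M4 := !![1, b, c, e; 0, 1, b, 0; 0, 0, 1, 0; 0, 0, f, 1]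
theorem det_cm : ∀ b c e f : K, det4 (cm b c e f) = 1 := by decide +kernel
def cS (b c e f : K) : S4 := mkS (cm b c e f) (det_cm b c e f)

theorem comm_form {h : M4} (hd : det4 h = 1) (hc : h * jm 1 0 0 = jm 1 0 0 * h) :
    h = cm (h 0 1) (h 0 2) (h 0 3) (h 3 2) ∨ -h = cm (-h 0 1) (-h 0 2) (-h 0 3) (-h 3 2) := by
  have key : ∀ i j, (h * jm 1 0 0) i j = (jm 1 0 0 * h) i j := fun i j => by rw [hc]
  have e00 := key 0 0
  have e01 := key 0 1
  have e02 := key 0 2
  have e03 := key 0 3
  have e10 := key 1 0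
  have e11 := key 1 1
  have e12 := key 1 2
  have e13 := key 1 3
  have e21 := key 2 1
  have e22 := key 2 2
  have e31 := key 3 1
  have e32 := key 3 2
  simp only [jm, Matrix.mul_apply, Fin.sum_univ_four, Matrix.of_apply, Matrix.cons_val_zero, Matrix.cons_val_one,
    Matrix.cons_val, mul_zero, mul_one, zero_mul, one_mul, add_zero, zero_add] at e00 e01 e02 e03 e10 e11 e12 e13 e21 e22 e31 e32
  have f10 : h 1 0 = 0 := by linear_combination -e00
  have f11 : h 1 1 = h 0 0 := by linear_combination -e01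
  have f12 : h 1 2 = h 0 1 := by linear_combination -e02
  have f13 : h 1 3 = 0 := by linear_combination -e03
  have f20 : h 2 0 = 0 := by linear_combination -e10
  have f21 : h 2 1 = 0 := by linear_combination -e11 + f10
  have f22 : h 2 2 = h 0 0 := by linear_combination -e12 + f11
  have f23 : h 2 3 = 0 := by linear_combination -e13
  have f30 : h 3 0 = 0 := by linear_combination e31
  have f31 : h 3 1 = 0 := by linear_combination e32
  have hdet : h 0 0 * (h 0 0 * (h 0 0 * h 3 3)) = 1 := by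
    rw [det4, f10, f11, f12, f13, f20, f21, f22, f23, f30, f31] at hd
    linear_combination hd
  have h2 : ∀ a g : K, a * (a * (a * g)) = 1 → (a = 1 ∧ g = 1) ∨ (-a = 1 ∧ -g = 1) := by decide
  rcases h2 _ _ hdet with ⟨ha, hg⟩ | ⟨ha, hg⟩
  · left
    ext i j
    fin_cases i <;> fin_cases j <;> simp [cm, f10, f11, f12, f13, f20, f21, f22, f23, f30, f31, ha, hg]
  · right
    ext i j
    fin_cases i <;> fin_cases j <;> simp [cm, f10, f11, f12, f13, f20, f21, f22, f23, f30, f31, ha, hg]

theorem cent_j (t : P4) (ht : t⁻¹ * π (jS 1 0 0) * t = π (jS 1 0 0)) : ∃ b c e f : K, t = π (cS b c e f) := by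
  obtain ⟨h, rfl⟩ := π_surj t
  have h1 : h⁻¹ * jS 1 0 0 * h = jS 1 0 0 := by
    refine π_inj (n := 3) (by decide) ?_ (jS_cube _ _ _) (by rw [map_mul, map_mul, map_inv, ht])
    have h2 : (h⁻¹ * jS 1 0 0 * h) ^ 3 = h⁻¹ * (jS 1 0 0) ^ 3 * h := by
      have := conj_pow (a := h⁻¹) (b := jS 1 0 0) (i := 3)
      rwa [inv_inv] at this
    rw [h2, jS_cube, mul_one, inv_mul_cancel]
  have h2 : h * jS 1 0 0 = jS 1 0 0 * h := by
    rw [← h1]
    have : h * (h⁻¹ * jS 1 0 0 * h) = jS 1 0 0 * h := by group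
    rw [this]
    congr 1
    exact h1.symm ▸ rfl
  have h3 : (h : M4) * jm 1 0 0 = jm 1 0 0 * h := congrArg (fun s : S4 => (s : M4)) h2
  have hd : det4 (h : M4) = 1 := by rw [← det4_eq]; exact h.2
  rcases comm_form hd h3 with h4 | h4
  · refine ⟨(h : M4) 0 1, (h : M4) 0 2, (h : M4) 0 3, (h : M4) 3 2, ?_⟩
    have h5 : h = cS ((h : M4) 0 1) ((h : M4) 0 2) ((h : M4) 0 3) ((h : M4) 3 2) := Subtype.ext h4
    exact congrArg π h5
  · refine ⟨_, _, _, _, (?_ : π h = π (cS (-(h : M4) 0 1) (-(h : M4) 0 2) (-(h : M4) 0 3) (-(h : M4) 3 2)))⟩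
    have h5 : nS * h = cS (-(h : M4) 0 1) (-(h : M4) 0 2) (-(h : M4) 0 3) (-(h : M4) 3 2) := by
      apply Subtype.ext
      rw [Matrix.SpecialLinearGroup.coe_mul, nS_coe, neg_one_mul]
      exact h4
    rw [← h5, map_mul, π_nS, one_mul]

theorem card_cent_j : Nat.card {t : P4 // t⁻¹ * π (jS 1 0 0) * t = π (jS 1 0 0)} ≤ 81 := by
  have h1 : ∀ t : {t : P4 // t⁻¹ * π (jS 1 0 0) * t = π (jS 1 0 0)}, ∃ v : K × K × K × K,
      t.1 = π (cS v.1 v.2.1 v.2.2.1 v.2.2.2) := by
    rintro ⟨t, ht⟩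
    obtain ⟨b, c, e, f, h⟩ := cent_j t ht
    exact ⟨(b, c, e, f), h⟩
  choose v hv using h1
  have h2 := Nat.card_le_card_of_injective v (fun a b hab => Subtype.ext (by rw [hv a, hv b, hab]))
  refine h2.trans ?_
  rw [Nat.card_prod, Nat.card_prod, Nat.card_prod, Nat.card_zmod]

theorem card_j : 74880 ≤ cG (π (jS 1 0 0)) := by
  have h1 := card_G (π (jS 1 0 0))
  rw [card_P4] at h1
  have h2 := card_cent_j
  have h3 : cG (π (jS 1 0 0)) * Nat.card {t : P4 // t⁻¹ * π (jS 1 0 0) * t = π (jS 1 0 0)} ≤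
    cG (π (jS 1 0 0)) * 81 := Nat.mul_le_mul_left _ h2
  omega

/-! ### regular unipotent elements -/

abbrev G4 := GL (Fin 4) K

instance : Finite G4 := inferInstance

theorem card_G4 : Nat.card G4 = 24261120 := by
  have h := Matrix.card_GL_field (𝔽 := K) 4
  rw [h, ZMod.card]
  decide

def rS : S4 := mkS rm det_rm
def rG : G4 := (rS : G4)

theorem rG_coe : ((rG : G4) : M4) = rm := rfl

theorem comm_r {h : M4} (hc : h * rm = rm * h) : h = !![h 0 0, h 0 1, h 0 2, h 0 3; 0, h 0 0, h 0 1, h 0 2;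
    0, 0, h 0 0, h 0 1; 0, 0, 0, h 0 0] := by
  have key : ∀ i j, (h * rm) i j = (rm * h) i j := fun i j => by rw [hc]
  have e00 := key 0 0
  have e01 := key 0 1
  have e02 := key 0 2
  have e03 := key 0 3
  have e10 := key 1 0
  have e11 := key 1 1
  have e12 := key 1 2
  have e13 := key 1 3
  have e20 := key 2 0
  have e21 := key 2 1
  have e22 := key 2 2
  have e23 := key 2 3
  simp only [rm, Matrix.mul_apply, Fin.sum_univ_four, Matrix.of_apply, Matrix.cons_val_zero, Matrix.cons_val_one,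
    Matrix.cons_val, mul_zero, mul_one, zero_mul, one_mul, add_zero, zero_add] at e00 e01 e02 e03 e10 e11 e12 e13 e20 e21 e22 e23
  have f10 : h 1 0 = 0 := by linear_combination -e00
  have f11 : h 1 1 = h 0 0 := by linear_combination -e01
  have f12 : h 1 2 = h 0 1 := by linear_combination -e02
  have f13 : h 1 3 = h 0 2 := by linear_combination -e03
  have f20 : h 2 0 = 0 := by linear_combination -e10
  have f21 : h 2 1 = 0 := by linear_combination -e11 + f10
  have f22 : h 2 2 = h 0 0 := by linear_combination -e12 + f11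
  have f23 : h 2 3 = h 0 1 := by linear_combination -e13 + f12
  have f30 : h 3 0 = 0 := by linear_combination -e20
  have f31 : h 3 1 = 0 := by linear_combination -e21 + f20
  have f32 : h 3 2 = 0 := by linear_combination -e22 + f21
  have f33 : h 3 3 = h 0 0 := by linear_combination -e23 + f22
  ext i j
  fin_cases i <;> fin_cases j <;> simp [f10, f11, f12, f13, f20, f21, f22, f23, f30, f31, f32, f33]

theorem card_cent_r : Nat.card {t : G4 // t⁻¹ * rG * t = rG} ≤ 54 := by
  have hcomm : ∀ t : {t : G4 // t⁻¹ * rG * t = rG}, (t.1 : M4) * rm = rm * (t.1 : M4) := by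
    rintro ⟨t, ht⟩
    have h1 : t * rG = rG * t := by
      calc t * rG = t * (t⁻¹ * rG * t) := by rw [ht]
        _ = rG * t := by group
    exact congrArg (fun s : G4 => (s : M4)) h1
  have hne : ∀ t : {t : G4 // t⁻¹ * rG * t = rG}, (t.1 : M4) 0 0 ≠ 0 := by
    intro t h0
    have h1 := comm_r (hcomm t)
    have h2 : (t.1 : M4).det ≠ 0 := by
      have := (Matrix.isUnit_iff_isUnit_det _).1 t.1.isUnit
      exact this.ne_zero
    apply h2
    rw [det4_eq, h1, h0]
    simp [det4]
  let f : {t : G4 // t⁻¹ * rG * t = rG} → {v : K × K × K × K // v.1 ≠ 0} := fun t =>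
    ⟨((t.1 : M4) 0 0, (t.1 : M4) 0 1, (t.1 : M4) 0 2, (t.1 : M4) 0 3), hne t⟩
  have hf : Function.Injective f := by
    intro a b hab
    have h1 := congrArg (fun v : {v : K × K × K × K // v.1 ≠ 0} => v.1) hab
    simp only [f, Prod.mk.injEq] at h1
    apply Subtype.ext
    apply Units.ext
    rw [comm_r (hcomm a), comm_r (hcomm b), h1.1, h1.2.1, h1.2.2.1, h1.2.2.2]
  have h2 : Nat.card {v : K × K × K × K // v.1 ≠ 0} = 54 := by
    rw [Nat.card_eq_fintype_card]
    decide +kernel
  rw [← h2]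
  exact Nat.card_le_card_of_injective f hf

theorem card_r : 449280 ≤ cG rG := by
  have h1 := card_G rG
  rw [card_G4] at h1
  have h2 := card_cent_r
  have h3 : cG rG * Nat.card {t : G4 // t⁻¹ * rG * t = rG} ≤ cG rG * 54 := Nat.mul_le_mul_left _ h2
  omega

end Cfsg.Agent.H146.F42.L43
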