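import Cfsg.Agent.H146.F42.L43Cnt

/-!
# S5745, row `F_4(2)`, `T = L_4(3)` (helper146)

`row` : `G` of order `|F_4(2)|` acting on an elementary abelian group of order `2 ^ 52` with the given bounds for the
centralizers of the elements of order `3, 5, 13` : no extremely primitive action with stabilizer of socle `L_4(3)`.
-/

set_option autoImplicit false
set_option linter.unusedSectionVars false

namespace Cfsg.Agent.H146.F42

open Subgroup Cfsg Cfsg.Agent.H284 Cfsg.Agent.H209.EPX Cfsg.Agent.H742.EX

theorem card_cent_eq {G : Type*} [Group G] (x : G) :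
    Nat.card {g : G // g⁻¹ * x * g = x} = Nat.card (centralizer ({x} : Set G)) := by
  refine Nat.card_congr (Equiv.subtypeEquivRight fun g => ?_)
  rw [mem_centralizer_singleton_iff, mul_assoc, inv_mul_eq_iff_eq_mul]
  exact eq_comm

theorem cG_mul {G : Type*} [Group G] [Finite G] (x : G) :
    Nat.card G = cG x * Nat.card (centralizer ({x} : Set G)) := by
  rw [card_G x, card_cent_eq]

/-- `|x^G ∩ H| / |x^G|` -/
theorem ratio_eq {G : Type*} [Group G] [Finite G] (H : Subgroup G) (x : G) :
    (cH H x / cG x : ℚ) = cH H x * Nat.card (centralizer ({x} : Set G)) / Nat.card G := by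
  have h1 := cG_mul x
  have h2 : (0 : ℚ) < cG x := by exact_mod_cast cG_pos x
  have h3 : (0 : ℚ) < Nat.card (centralizer ({x} : Set G)) := by exact_mod_cast Nat.card_pos
  rw [h1]
  push_cast
  field_simp

/-- the bounds for the centralizers of elements of prime order in `F_4(2)` -/
structure Data (G : Type*) [Group G] (U : Type*) [AddCommGroup U] [DistribMulAction G U] (c3 : ℕ) : Prop where
  card : Nat.card G = 3311126603366400
  exp : ∀ u : U, 2 • u = 0
  cardU : Nat.card U = 2 ^ 52
  three : ∀ x : G, orderOf x = 3 → 2 ∣ Nat.card (centralizer ({x} : Set G)) →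
    (F1 U x = 2 ^ 22 ∧ Nat.card (centralizer ({x} : Set G)) ≤ 4354560) ∨
      (F1 U x = 2 ^ 16 ∧ Nat.card (centralizer ({x} : Set G)) ≤ c3)
  odd : ∀ x : G, orderOf x = 3 → ¬ 2 ∣ Nat.card (centralizer ({x} : Set G)) →
    Nat.card (centralizer ({x} : Set G)) ≤ 893025
  five : ∀ x : G, orderOf x = 5 → Nat.card (centralizer ({x} : Set G)) ≤ 10800
  thirteen : ∀ x : G, orderOf x = 13 → Nat.card (centralizer ({x} : Set G)) ≤ 13

variable {G : Type*} [Group G] [Finite G] {H N : Subgroup G}

/-- the elements of order `r` of `H`, and of `T` -/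
theorem card_el_le {T : Type*} [Group T] [Finite T] (hN : NIn N H) (e : N ≃* T) {r : ℕ} (hr : r.Prime)
    (hco : ¬ r ∣ N.relIndex H) : (el H r).card ≤ Nat.card {t : T // orderOf t = r} := by
  classical
  have hmem : ∀ x : el H r, x.1 ∈ N := fun x => Cfsg.Agent.H686.EX.mem_of_pow hN hr hco (mem_el.1 x.2).1 (by
    have h := pow_orderOf_eq_one x.1
    rwa [(mem_el.1 x.2).2] at h)
  rw [← Fintype.card_coe, ← Nat.card_eq_fintype_card]
  refine Nat.card_le_card_of_injective (fun x : el H r => (⟨e ⟨x.1, hmem x⟩, by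
    rw [MulEquiv.orderOf_eq, ← Subgroup.orderOf_coe]
    exact (mem_el.1 x.2).2⟩ : {t : T // orderOf t = r})) ?_
  intro x y hxy
  have h1 := congrArg Subtype.val hxy
  have h2 := congrArg Subtype.val (e.injective h1)
  exact Subtype.ext h2

theorem cH_le_el {r : ℕ} {x : G} (hx : orderOf x = r) : cH H x ≤ (el H r).card := by
  classical
  have h5 : cH H x ≤ Nat.card (el H r) := by
    refine Nat.card_le_card_of_injective (fun y : {y : G // IsConj x y ∧ y ∈ H} => (⟨y.1, mem_el.2 ⟨y.2.2, ?_⟩⟩ : el H r)) ?_
    · obtain ⟨d, hd⟩ := isConj_iff.1 y.2.1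
      rw [← hd, ← hx]
      exact (MulAut.conj d).orderOf_eq x
    · intro y z hyz
      exact Subtype.ext (congrArg (fun t : el H r => (t : G)) hyz)
  rwa [Nat.card_eq_fintype_card, Fintype.card_coe] at h5

/-- the sum of a prime -/
theorem sum_le {r : ℕ} (N c : ℕ) (g : ℕ) (hg : Nat.card G = g) (hN : (el H r).card ≤ N)
    (hc : ∀ x ∈ el H r, cH H x * Nat.card (centralizer ({x} : Set G)) ≤ c) :
    ∑ x ∈ el H r, (cH H x / cG x : ℚ) ≤ N * (c / g) := by
  have hg0 : (0 : ℚ) < g := by
    have : 0 < Nat.card G := Nat.card_pos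
    rw [hg] at this
    exact_mod_cast this
  have h1 : ∀ x ∈ el H r, (cH H x / cG x : ℚ) ≤ c / g := by
    intro x hx
    rw [ratio_eq, hg]
    have h2 := hc x hx
    have h3 : ((cH H x : ℚ) * Nat.card (centralizer ({x} : Set G))) ≤ c := by exact_mod_cast h2
    gcongr
  refine (Finset.sum_le_sum h1).trans ?_
  rw [Finset.sum_const, nsmul_eq_mul]
  have h4 : ((el H r).card : ℚ) ≤ N := by exact_mod_cast hN
  have h5 : (0 : ℚ) ≤ (c : ℚ) / g := by positivity
  exact mul_le_mul_of_nonneg_right h4 h5

variable {T : Type} [Group T] {e : N ≃* (Fin 1 → T)} {U : Type*} [AddCommGroup U] [Finite U] [DistribMulAction G U]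

namespace L43

theorem out_P4 : Nat.card (Out P4) = 4 := Cfsg.Agent.H686.EX.out_psl43 (F := K) (by decide)

/-- **The row** -/
theorem row (h : EPS H N e) (eT : T ≃* P4) (hM : ∀ g ∉ H, ∃ r ∈ ({3, 5, 13} : Finset ℕ), r ∣ Nat.card (H ⊓ cj g H : Subgroup G))
    (D : Data G U 233280) : False := by
  classical
  have hN : NIn N H := h.toNIn
  let e' : N ≃* P4 := (e.trans (MulEquiv.funUnique (Fin 1) T)).trans eT
  have hrel : N.relIndex H ∣ 4 := by
    have := Cfsg.Agent.H686.EX.relIndex_dvd_out hN h.cent e'
    rwa [out_P4] at this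
  have hco : ∀ r : ℕ, r.Prime → r ≠ 2 → ¬ r ∣ N.relIndex H := by
    intro r hr h2 hd
    have h3 : r ∣ 2 ^ 2 := hd.trans hrel
    exact h2 ((Nat.prime_dvd_prime_iff_eq hr Nat.prime_two).1 (hr.dvd_of_dvd_pow h3))
  -- the homomorphism
  let ι : P4 →* G := N.subtype.comp e'.symm.toMonoidHom
  have hι : Function.Injective ι := Subtype.val_injective.comp e'.symm.injective
  have hιH : ∀ t, ι t ∈ H := fun t => hN.le (e'.symm t).2
  let ψ : S4 →* G := ι.comp π
  have hker : ∀ g : S4, ψ g = 1 → (g : M4) = 1 ∨ (g : M4) = -1 := by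
    intro g hg
    exact π_one (hι (by rw [map_one]; exact hg))
  have hfus := fusion D.exp D.cardU ψ hker (fun x hx h2 => (D.three x hx h2).imp And.left And.left)
  -- the class of `J_3 + J_1` in `H`
  have h3card : (el H 3).card ≤ 82161 := (card_el_le hN e' Nat.prime_three (hco 3 Nat.prime_three (by norm_num))).trans
    card_three
  have h5card : (el H 5).card ≤ 303264 := (card_el_le hN e' Nat.prime_five (hco 5 Nat.prime_five (by norm_num))).trans
    card_five
  have h13card : (el H 13).card ≤ 6065280 := by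
    refine (card_el_le hN e' (by norm_num) (hco 13 (by norm_num) (by norm_num))).trans ?_
    rw [← card_P4]
    exact Nat.card_le_card_of_injective (fun t : {t : P4 // orderOf t = 13} => t.1) Subtype.val_injective
  have hj : ∀ x ∈ el H 3, F1 U x = 2 ^ 22 → cH H x ≤ 7281 := by
    intro x hx hx22
    have h1 : Nat.card ({y : G // IsConj x y ∧ y ∈ H} ⊕ {t : P4 // IsConj (π (jS 1 0 0)) t}) ≤ (el H 3).card := by
      rw [← Fintype.card_coe, ← Nat.card_eq_fintype_card]
      refine Nat.card_le_card_of_injective (fun s => (match s with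
        | Sum.inl y => ⟨y.1, mem_el.2 ⟨y.2.2, by
            obtain ⟨d, hd⟩ := isConj_iff.1 y.2.1
            rw [← hd, ← (mem_el.1 hx).2]
            exact (MulAut.conj d).orderOf_eq x⟩⟩
        | Sum.inr t => ⟨ι t.1, mem_el.2 ⟨hιH _, by
            rw [orderOf_injective ι hι]
            obtain ⟨d, hd⟩ := isConj_iff.1 t.2
            rw [← hd]
            have h5 := (MulAut.conj d).orderOf_eq (π (jS 1 0 0))
            refine h5.trans ?_
            refine orderOf_eq_prime ?_ ?_
            · rw [← map_pow, jS_cube, map_one]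
            · intro h6
              rcases π_one h6 with h7 | h7
              · have h8 := congrFun (congrFun h7 0) 1
                revert h8
                decide
              · have h8 := congrFun (congrFun h7 0) 0
                revert h8
                decide⟩⟩ : el H 3)) ?_
      have hdis : ∀ (y : {y : G // IsConj x y ∧ y ∈ H}) (t : {t : P4 // IsConj (π (jS 1 0 0)) t}), y.1 ≠ ι t.1 := by
        intro y t hyt
        have h2 := ι.map_isConj t.2
        rw [← hyt] at h2
        have h3 : F1 U (ι (π (jS 1 0 0))) = F1 U x := F1_conj (h2.trans y.2.1.symm)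
        exact hfus (h3.trans hx22)
      rintro (a | a) (b | b) hab
      · have h2 := congrArg Subtype.val hab
        exact congrArg Sum.inl (Subtype.ext h2)
      · exact (hdis a b (congrArg Subtype.val hab)).elim
      · exact (hdis b a (congrArg Subtype.val hab).symm).elim
      · have h2 := congrArg Subtype.val hab
        exact congrArg Sum.inr (Subtype.ext (hι h2))
    rw [Nat.card_sum] at h1
    have h2 := card_j
    have h3 : cH H x = Nat.card {y : G // IsConj x y ∧ y ∈ H} := rfl
    have h4 : cG (π (jS 1 0 0)) = Nat.card {t : P4 // IsConj (π (jS 1 0 0)) t} := rfl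
    omega
  -- the three sums
  have s3 := sum_le (H := H) (r := 3) 82161 (82161 * 893025) _ D.card h3card (by
    intro x hx
    have hx3 := (mem_el.1 hx).2
    have hcx : cH H x ≤ 82161 := (cH_le_el hx3).trans h3card
    by_cases h2 : 2 ∣ Nat.card (centralizer ({x} : Set G))
    · rcases D.three x hx3 h2 with ⟨h4, h5⟩ | ⟨h4, h5⟩
      · exact (Nat.mul_le_mul (hj x hx h4) h5).trans (by norm_num)
      · exact (Nat.mul_le_mul hcx h5).trans (by norm_num)
    · exact Nat.mul_le_mul hcx (D.odd x hx3 h2))
  have s5 := sum_le (H := H) (r := 5) 303264 (303264 * 10800) _ D.card h5card (by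
    intro x hx
    have hx5 := (mem_el.1 hx).2
    exact Nat.mul_le_mul ((cH_le_el hx5).trans h5card) (D.five x hx5))
  have s13 := sum_le (H := H) (r := 13) 6065280 (6065280 * 13) _ D.card h13card (by
    intro x hx
    have hx5 := (mem_el.1 hx).2
    exact Nat.mul_le_mul ((cH_le_el hx5).trans h13card) (D.thirteen x hx5))
  have hpi := e_pi_class H {3, 5, 13} (by
    intro r hr
    simp only [Finset.mem_insert, Finset.mem_singleton] at hr
    rcases hr with rfl | rfl | rfl <;> norm_num) hM
  rw [Finset.sum_insert (by norm_num), Finset.sum_insert (by norm_num), Finset.sum_singleton] at hpi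
  -- the index
  have hHcard : Nat.card H ≤ 4 * 6065280 := by
    have h2 : Nat.card N * N.relIndex H = Nat.card H := by
      have h3 := (N.subgroupOf H).card_mul_index
      rwa [Nat.card_congr (Subgroup.subgroupOfEquivOfLe hN.le).toEquiv] at h3
    rw [← h2, Nat.card_congr e'.toEquiv, card_P4, mul_comm]
    exact Nat.mul_le_mul_right _ (Nat.le_of_dvd (by norm_num) hrel)
  have hidx : 1000 ≤ H.index := by
    have h1 := H.card_mul_index
    rw [D.card] at h1
    by_contra hcon
    push Not at hcon
    have h2 : Nat.card H * H.index ≤ (4 * 6065280) * 1000 := Nat.mul_le_mul hHcard hcon.le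
    rw [h1] at h2
    norm_num at h2
  have hidx' : (1000 : ℚ) ≤ H.index := by exact_mod_cast hidx
  have hb : (1 / (((3 : ℕ) : ℚ) - 1)) * ∑ x ∈ el H 3, (cH H x / cG x : ℚ) +
      ((1 / (((5 : ℕ) : ℚ) - 1)) * ∑ x ∈ el H 5, (cH H x / cG x : ℚ) +
        (1 / (((13 : ℕ) : ℚ) - 1)) * ∑ x ∈ el H 13, (cH H x / cG x : ℚ)) ≤ 998 / 1000 := by
    push_cast at s3 s5 s13 ⊢
    norm_num at s3 s5 s13 ⊢
    linarith
  have h9 := mul_le_mul_of_nonneg_left hb (show (0 : ℚ) ≤ H.index by linarith)
  linarith

end L43

end Cfsg.Agent.H146.F42
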